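import Mathlib
import Cfsg.Agent.Lib.Helper63.BB.Defs
import Cfsg.Agent.Lib.Helper85.UnifPow
import Cfsg.Agent.Lib.Helper59.MC.Struct

set_option autoImplicit false

/-!
# S4144 (BB) package [PS]

Power structure of the lower central series of a `p`-group of maximal class with a uniform
element `e` (centralizer of order `p ^ 2`, `e ^ p` central). Method 2: the arguments of
`Helper85.UnifElt` / `UnifPow` with `e ^ p ∈ center` instead of `e ^ p = 1`.
-/

namespace Cfsg.Agent.Lib.Helper23.BB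

open scoped commutatorElement Pointwise
open Cfsg.Agent.S4209 Cfsg.Agent.Lib.Helper85.PolySeq
open Cfsg.Agent.Lib
open Cfsg.Agent.Lib.Helper85.UnifElt

universe u

variable {G : Type u} [Group G]

/-- `e` has centralizer of order `p ^ 2`, `e ^ p` is central and lies in `L 1`, `e ∉ L 1`, in
the group `G` of order `p ^ n` and class `n - 1` with `|L i| = p ^ (n - 1 - i)`. -/
structure UnifC (p n : ℕ) (e : G) : Prop where
  card : Nat.card G = p ^ n
  n3 : 3 ≤ n
  cls : Group.nilpotencyClass G = n - 1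
  powc : e ^ p ∈ Subgroup.center G
  powL : e ^ p ∈ L G 1
  cent : Nat.card (Subgroup.centralizer ({e} : Set G)) = p ^ 2
  notL1 : e ∉ L G 1
  cardL : ∀ i, 1 ≤ i → Nat.card (L G i) = p ^ (n - 1 - i)

/-- a proper inclusion of subgroups of a `p`-group has index at least `p` -/
theorem card_mul_le_of_lt [Finite G] {p : ℕ} [Fact p.Prime] {n : ℕ} (hG : Nat.card G = p ^ n)
    {N M : Subgroup G} (hNM : N ≤ M) {y : G} (hyM : y ∈ M) (hyN : y ∉ N) :
    p * Nat.card N ≤ Nat.card M := by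
  have hp : p.Prime := Fact.out
  obtain ⟨a, -, ha⟩ := (Nat.dvd_prime_pow hp).1 (hG ▸ Subgroup.card_subgroup_dvd_card M)
  obtain ⟨b, -, hb⟩ := (Nat.dvd_prime_pow hp).1 (hG ▸ Subgroup.card_subgroup_dvd_card N)
  have hlt : Nat.card N < Nat.card M := by
    by_contra hcon
    have h1 : N = M := Subgroup.eq_of_le_of_card_ge hNM (not_lt.1 hcon)
    apply hyN
    rw [h1]
    exact hyM
  rw [ha, hb] at hlt ⊢
  have h1 : b < a := (Nat.pow_lt_pow_iff_right hp.one_lt).1 hlt
  rw [← pow_succ']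
  exact Nat.pow_le_pow_right hp.pos (by omega)

/-- `|⟨y⟩ N| ≤ p |N|` when `y ^ p ∈ N`, `N` normal. -/
theorem card_zpowers_sup_le [Finite G] {p : ℕ} (hp : 0 < p) (N : Subgroup G) (hN : N.Normal)
    {y : G} (hyp : y ^ p ∈ N) :
    Nat.card (Subgroup.zpowers y ⊔ N : Subgroup G) ≤ p * Nat.card N := by
  classical
  obtain ⟨S, hS⟩ : ∃ S : Finset G, S = (Finset.range p).image (fun r : ℕ => y ^ r) := ⟨_, rfl⟩
  have hScard : Nat.card (S : Set G) ≤ p := by
    rw [Nat.card_coe_set_eq, Set.ncard_coe_finset, hS]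
    exact Finset.card_image_le.trans (by rw [Finset.card_range])
  have hsub : ((Subgroup.zpowers y ⊔ N : Subgroup G) : Set G) ⊆ (S : Set G) * (N : Set G) := by
    rw [Subgroup.mul_normal]
    rintro _ ⟨z, hz, m, hm, rfl⟩
    obtain ⟨a, rfl⟩ := Subgroup.mem_zpowers_iff.1 hz
    have hpz : (0 : ℤ) < (p : ℤ) := by exact_mod_cast hp
    have hr0 : 0 ≤ a % (p : ℤ) := Int.emod_nonneg a hpz.ne'
    have hr1 : a % (p : ℤ) < (p : ℤ) := Int.emod_lt_of_pos a hpz
    obtain ⟨r, hr⟩ := Int.eq_ofNat_of_zero_le hr0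
    have hrp : r < p := by
      have : (r : ℤ) < (p : ℤ) := by rw [← hr]; exact hr1
      exact_mod_cast this
    have hdecomp : y ^ a = y ^ r * (y ^ p) ^ (a / (p : ℤ)) := by
      rw [← zpow_natCast y r, ← hr, ← zpow_natCast y p, ← zpow_mul, ← zpow_add]
      congr 1
      exact (Int.emod_add_mul_ediv a p).symm
    refine ⟨y ^ r, ?_, (y ^ p) ^ (a / (p : ℤ)) * m, N.mul_mem (N.zpow_mem hyp _) hm, ?_⟩
    · rw [hS]
      exact Finset.mem_coe.2 (Finset.mem_image.2 ⟨r, Finset.mem_range.2 hrp, rfl⟩)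
    · show y ^ r * ((y ^ p) ^ (a / (p : ℤ)) * m) = y ^ a * m
      rw [hdecomp]
      group
  calc Nat.card (Subgroup.zpowers y ⊔ N : Subgroup G)
      = Nat.card (((Subgroup.zpowers y ⊔ N : Subgroup G) : Set G)) := rfl
    _ ≤ Nat.card ((S : Set G) * (N : Set G) : Set G) := Nat.card_mono (Set.toFinite _) hsub
    _ ≤ Nat.card (S : Set G) * Nat.card (N : Set G) := Set.natCard_mul_le
    _ ≤ p * Nat.card N := Nat.mul_le_mul_right _ hScard

section unif

variable [Finite G] {p : ℕ} [Fact p.Prime] {n : ℕ} {e : G}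

theorem L_eq_botC (hU : UnifC p n e) (i : ℕ) (hi : n ≤ i + 1) : L G i = ⊥ := by
  have hP : IsPGroup p G := IsPGroup.of_card hU.card
  haveI : Group.IsNilpotent G := hP.isNilpotent
  have hc := hU.cls
  exact (Subgroup.lowerCentralSeries_eq_bot_iff_nilpotencyClass_le).2 (by omega)

theorem exists_conjC (hU : UnifC p n e) {x : G} (hx : x ∈ L G 1) :
    ∃ g : G, g * e * g⁻¹ = e * x := by
  by_contra hne
  push Not at hne
  have hp : p.Prime := Fact.out
  have hn3 := hU.n3
  have hD : ∀ g ∈ (⊤ : Subgroup G), e⁻¹ * g * e * g⁻¹ ∈ ((L G 1 : Set G) \ {x}) := by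
    intro g _
    refine ⟨?_, ?_⟩
    · have e1 : e⁻¹ * g * e * g⁻¹ = ⁅e⁻¹, g⁆ := by rw [commutatorElement_def, inv_inv]
      rw [e1]
      show ⁅e⁻¹, g⁆ ∈ ⁅(⊤ : Subgroup G), (⊤ : Subgroup G)⁆
      exact Subgroup.commutator_mem_commutator (H₁ := ⊤) (H₂ := ⊤) (Subgroup.mem_top e⁻¹)
        (Subgroup.mem_top g)
    · intro h
      rw [Set.mem_singleton_iff] at h
      apply hne g
      rw [← h]
      group
  have h := card_le_mul e (⊤ : Subgroup G) ((L G 1 : Set G) \ {x}) hD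
  rw [Subgroup.card_top, hU.card, hU.cent, Nat.card_coe_set_eq,
    Set.ncard_sdiff_singleton_of_mem hx] at h
  have h1 : (L G 1 : Set G).ncard = p ^ (n - 2) := by
    rw [← Nat.card_coe_set_eq]
    have h2 := hU.cardL 1 le_rfl
    rw [show n - 1 - 1 = n - 2 by omega] at h2
    exact h2
  rw [h1] at h
  have h3 : 0 < p ^ (n - 2) := pow_pos hp.pos _
  have h4 : (p ^ (n - 2) - 1) * p ^ 2 < p ^ (n - 2) * p ^ 2 :=
    Nat.mul_lt_mul_of_pos_right (by omega) (pow_pos hp.pos 2)
  rw [← pow_add, show n - 2 + 2 = n by omega] at h4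
  omega

theorem mul_pow_eqC (hU : UnifC p n e) {x : G} (hx : x ∈ L G 1) : (e * x) ^ p = e ^ p := by
  obtain ⟨g, hg⟩ := exists_conjC hU hx
  rw [← hg, conj_pow]
  have hc := Subgroup.mem_center_iff.1 hU.powc g
  rw [hc]
  group

/-- `ad e` is injective on the factors of the lower central series. -/
theorem comm_not_memC (hU : UnifC p n e) {i : ℕ} (hi : 1 ≤ i) (hin : i + 3 ≤ n) {y : G}
    (hy : y ∈ L G i) (hc : y⁻¹ * (e * y * e⁻¹) ∈ L G (i + 2)) : y ∈ L G (i + 1) := by
  by_contra hy1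
  have hp : p.Prime := Fact.out
  have hNn : (L G (i + 2)).Normal := L_normal _
  let D : Subgroup G :=
    { carrier := {g | e⁻¹ * g * e * g⁻¹ ∈ L G (i + 2)}
      one_mem' := by
        show e⁻¹ * 1 * e * 1⁻¹ ∈ L G (i + 2)
        simp
      mul_mem' := by
        intro g h hg hh
        show e⁻¹ * (g * h) * e * (g * h)⁻¹ ∈ L G (i + 2)
        have e1 : e⁻¹ * (g * h) * e * (g * h)⁻¹ =
            (e⁻¹ * g * e * g⁻¹) * (g * (e⁻¹ * h * e * h⁻¹) * g⁻¹) := by group
        rw [e1]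
        exact (L G (i + 2)).mul_mem hg (hNn.conj_mem _ hh g)
      inv_mem' := by
        intro g hg
        show e⁻¹ * g⁻¹ * e * g⁻¹⁻¹ ∈ L G (i + 2)
        have e1 : e⁻¹ * g⁻¹ * e * g⁻¹⁻¹ = g⁻¹ * (e⁻¹ * g * e * g⁻¹)⁻¹ * g⁻¹⁻¹ := by group
        rw [e1]
        exact hNn.conj_mem _ ((L G (i + 2)).inv_mem hg) g⁻¹ }
  have hDmem : ∀ g, g ∈ D ↔ e⁻¹ * g * e * g⁻¹ ∈ L G (i + 2) := fun g => Iff.rfl
  have h1 := card_le_mul e D (L G (i + 2) : Set G) (fun g hg => hg)
  rw [hU.cent] at h1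
  have h1' : Nat.card D ≤ Nat.card (L G (i + 2)) * p ^ 2 := h1
  rw [hU.cardL (i + 2) (by omega)] at h1'
  -- lower bound
  have heD : e ∈ D := by
    rw [hDmem]
    simp
  have hyD : y ∈ D := by
    have h2 : y⁻¹ ∈ D := by
      rw [hDmem]
      have e1 : e⁻¹ * y⁻¹ * e * y⁻¹⁻¹ = e⁻¹ * (y⁻¹ * (e * y * e⁻¹)) * e⁻¹⁻¹ := by group
      rw [e1]
      exact hNn.conj_mem _ hc e⁻¹
    simpa using D.inv_mem h2
  have hLD : L G (i + 1) ≤ D := by
    intro g hg
    rw [hDmem]
    have e1 : e⁻¹ * g * e * g⁻¹ = (⁅g, e⁻¹⁆)⁻¹ := by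
      rw [commutatorElement_inv, commutatorElement_def, inv_inv]
    rw [e1]
    exact (L G (i + 2)).inv_mem (comm_mem_L hg e⁻¹)
  have hcard : Nat.card (L G i) = p * Nat.card (L G (i + 1)) := by
    rw [hU.cardL i hi, hU.cardL (i + 1) (by omega), ← pow_succ']
    congr 1
    omega
  have hLiD : L G i ≤ D :=
    (le_zpowers_sup (L_anti (Nat.le_succ i)) hcard hy hy1).trans
      (sup_le (by rw [Subgroup.zpowers_le]; exact hyD) hLD)
  have h4 : p * Nat.card (L G i) ≤ Nat.card D :=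
    card_mul_le_of_lt hU.card hLiD heD (fun h => hU.notL1 (L_anti hi h))
  rw [hU.cardL i hi] at h4
  have h5 : p * p ^ (n - 1 - i) ≤ p ^ (n - 1 - (i + 2)) * p ^ 2 := h4.trans h1'
  rw [← pow_succ', ← pow_add] at h5
  have h6 := (Nat.pow_le_pow_iff_right hp.one_lt).1 h5
  omega

/-- `e ^ p` lies in every `L j`, `j ≤ n - 2`. -/
theorem pow_mem_L (hU : UnifC p n e) : ∀ j, 1 ≤ j → j + 2 ≤ n → e ^ p ∈ L G j := by
  intro j
  induction j with
  | zero => intro h; omega
  | succ j ih =>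
    intro _ hj
    by_cases hj0 : j = 0
    · subst hj0
      exact hU.powL
    · have h1 : e ^ p ∈ L G j := ih (by omega) (by omega)
      apply comm_not_memC hU (i := j) (by omega) (by omega) h1
      have e1 : (e ^ p)⁻¹ * (e * e ^ p * e⁻¹) = 1 := by
        have hc := Subgroup.mem_center_iff.1 hU.powc e
        rw [hc]
        group
      rw [e1]
      exact Subgroup.one_mem _

/-- `℧₁(L i) ≤ L (i + p - 1)`. -/
theorem pow_memC (hU : UnifC p n e) {i : ℕ} (hi : 1 ≤ i) {x : G} (hx : x ∈ L G i) :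
    x ^ p ∈ L G (i + p - 1) := by
  have hp : p.Prime := Fact.out
  have hp2 := hp.two_le
  by_cases hin : n ≤ i + 1
  · rw [L_eq_botC hU i hin, Subgroup.mem_bot] at hx
    rw [hx, one_pow]
    exact Subgroup.one_mem _
  push Not at hin
  obtain ⟨N, hN⟩ : ∃ N, N = L G (i + p - 1) := ⟨_, rfl⟩
  rw [← hN]
  have hNn : N.Normal := by rw [hN]; exact L_normal _
  obtain ⟨U, hUdef⟩ : ∃ U, U = Subgroup.zpowers e ⊔ L G i := ⟨_, rfl⟩
  have hNU : N ≤ U := by
    rw [hN, hUdef]
    exact (L_anti (by omega)).trans le_sup_right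
  have heU : e ∈ U := by rw [hUdef]; exact Subgroup.mem_sup_left (Subgroup.mem_zpowers e)
  have hxU : x ∈ U := by rw [hUdef]; exact Subgroup.mem_sup_right hx
  have hcU : Nat.card U = p * Nat.card (L G i) := by
    rw [hUdef]
    apply le_antisymm
    · exact card_zpowers_sup_le hp.pos (L G i) (L_normal i) (pow_mem_L hU i hi (by omega))
    · exact card_mul_le_of_lt hU.card le_sup_right
        (Subgroup.mem_sup_left (Subgroup.mem_zpowers e)) (fun h => hU.notL1 (L_anti hi h))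
  have hcN : Nat.card (N.subgroupOf U) = Nat.card N :=
    Nat.card_congr (Subgroup.subgroupOfEquivOfLe hNU).toEquiv
  have hcQ := Subgroup.card_eq_card_quotient_mul_card_subgroup (N.subgroupOf U)
  rw [hcU, hcN, hN, hU.cardL i hi, hU.cardL (i + p - 1) (by omega), ← hN] at hcQ
  obtain ⟨k, hk, hkQ⟩ : ∃ k, k ≤ p ∧ Nat.card (U ⧸ N.subgroupOf U) = p ^ k := by
    have hdvd : Nat.card (U ⧸ N.subgroupOf U) ∣ p ^ (n - 1 - i + 1) := by
      rw [pow_succ']
      exact Dvd.intro _ hcQ.symm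
    obtain ⟨k, -, hk⟩ := (Nat.dvd_prime_pow hp).1 hdvd
    refine ⟨k, ?_, hk⟩
    rw [hk, ← pow_succ', ← pow_add] at hcQ
    have h1 := Nat.pow_right_injective hp.two_le hcQ
    omega
  have hreg : Cfsg.IsRegularPGroup p (U ⧸ N.subgroupOf U) :=
    Cfsg.Agent.S4209.result (IsPGroup.of_card hkQ) (class_lt_of_card hkQ hk)
  have hex : (e * x) ^ p = e ^ p := mul_pow_eqC hU (L_anti hi hx)
  have hab := (Cfsg.Agent.S4210.result hreg
    (QuotientGroup.mk (⟨e * x, U.mul_mem heU hxU⟩ : U))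
    (QuotientGroup.mk (⟨e, heU⟩ : U)) 1).1 (by
      rw [pow_one, ← QuotientGroup.mk_pow, ← QuotientGroup.mk_pow]
      congr 1
      apply Subtype.ext
      simp [hex])
  rw [pow_one, ← QuotientGroup.mk_inv, ← QuotientGroup.mk_mul, ← QuotientGroup.mk_pow,
    QuotientGroup.eq_one_iff, Subgroup.mem_subgroupOf] at hab
  have hab' : (e * x * e⁻¹) ^ p ∈ N := by simpa using hab
  rw [conj_pow] at hab'
  have h2 := hNn.conj_mem _ hab' e⁻¹
  simpa [mul_assoc] using h2

theorem cseq_not_memC (hU : UnifC p n e) {m : ℕ} (hm : 1 ≤ m) {b : G} (hb : b ∈ L G m)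
    (hb1 : b ∉ L G (m + 1)) : ∀ j, m + j + 2 ≤ n → cseq e b j ∉ L G (m + j + 1) := by
  intro j
  induction j with
  | zero => intro _; exact hb1
  | succ j ih =>
    intro hj h
    apply ih (by omega)
    exact comm_not_memC hU (i := m + j) (by omega) (by omega) (cseq_mem_L hb j) h

/-- `x ^ p ∉ L (m + p)` for `x ∈ L m \ L (m + 1)` when `L (m + p - 1) ≠ 1`. -/
theorem pow_not_memC (hU : UnifC p n e) {m : ℕ} (hm : 1 ≤ m) (hmn : m + p + 1 ≤ n) {b : G}
    (hb : b ∈ L G m) (hb1 : b ∉ L G (m + 1)) : b ^ p ∉ L G (m + p) := by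
  intro hbp
  have hp : p.Prime := Fact.out
  have hp2 := hp.two_le
  have hanti := Ffil_anti (G := G) m
  have hcomm := Ffil_comm (G := G) hm
  have hanti' := Ffil'_anti (G := G) m p
  have hcomm' := Ffil'_comm (G := G) hm hp2
  have hc : ∀ j, cseq e b j ∈ L G (m + j) := cseq_mem_L hb
  have hBmem : ∀ j k, Bseq e b j k ∈ L G (m + j) := fun j k =>
    (L_normal (m + j)).conj_mem _ (hc j) _
  have hBpoly : ∀ d j, n ≤ j + d → Poly (Ffil G m) (j + 1) (Bseq e b j) := by
    intro d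
    induction d with
    | zero =>
      intro j hj
      have h1 : cseq e b j = 1 := by
        have h2 := hc j
        rw [L_eq_botC hU (m + j) (by omega)] at h2
        exact Subgroup.mem_bot.1 h2
      have h2 : Bseq e b j = fun _ => 1 := by
        funext k
        show e ^ (k + 1) * cseq e b j * (e ^ (k + 1))⁻¹ = 1
        rw [h1]
        group
      rw [h2]
      exact poly_const (one_mem _)
    | succ d ih =>
      intro j hj
      apply poly_of_diff hanti
      · intro k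
        show Bseq e b j k ∈ L G (m + (j + 1 - 1))
        rw [Nat.add_sub_cancel]
        exact hBmem j k
      · have h1 := ih (j + 1) (by omega)
        rw [← diff_Bseq] at h1
        exact h1
  have hPmem : ∀ k, Pseq e b k ∈ L G m := by
    intro k
    induction k with
    | zero =>
      show (e * b) ^ 0 * (e ^ 0)⁻¹ ∈ L G m
      simp
    | succ k ih =>
      have h1 : Pseq e b (k + 1) = Pseq e b k * Bseq e b 0 k := by
        rw [← diff_Pseq]
        show _ = Pseq e b k * ((Pseq e b k)⁻¹ * Pseq e b (k + 1))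
        group
      rw [h1]
      exact (L G m).mul_mem ih (by simpa using hBmem 0 k)
  have hPpoly : Poly (Ffil G m) 0 (Pseq e b) := by
    apply poly_of_diff hanti
    · intro k
      show Pseq e b k ∈ L G (m + (0 - 1))
      simpa using hPmem k
    · have h1 := hBpoly n 0 (by omega)
      rw [← diff_Pseq] at h1
      exact h1
  have hP0 : Pseq e b 0 = 1 := by
    show (e * b) ^ 0 * (e ^ 0)⁻¹ = 1
    simp
  have hP1 : Pseq e b 1 = e * b * e⁻¹ := by
    show (e * b) ^ 1 * (e ^ 1)⁻¹ = _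
    simp
  have hT1 : (Pseq e b 1) ^ (p.choose 1) ∈ L G (m + p) := by
    rw [hP1, Nat.choose_one_right, conj_pow]
    exact (L_normal (m + p)).conj_mem _ hbp e
  have hT : ∀ k, 2 ≤ k → k < p → ∀ g ∈ Ffil G m k, g ^ (p.choose k) ∈ L G (m + p) := by
    intro k hk2 hkp g hg
    obtain ⟨t, ht⟩ := hp.dvd_choose_self (by omega) hkp
    rw [ht, pow_mul]
    apply Subgroup.pow_mem
    have h1 : g ^ p ∈ L G (m + (k - 1) + p - 1) := pow_memC hU (by omega) hg
    exact L_anti (by omega) h1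
  have hle : ∀ k, 1 ≤ k → k < p → Ffil G m k ≤ Ffil' G m p k := by
    intro k _ hk
    show L G (m + (k - 1)) ≤ (if k < p then L G (m + (k - 1)) else L G (m + k))
    rw [if_pos hk]
  obtain ⟨Q, R, hPQR, hQ, hR0, hRp, hQp⟩ :=
    taylor hanti hcomm hanti' p hp.one_lt.le hle (L G (m + p)) hPpoly hP0 hT1 hT
  have hPp : Pseq e b p = 1 := by
    show (e * b) ^ p * (e ^ p)⁻¹ = 1
    rw [mul_pow_eqC hU (L_anti hm hb)]
    group
  have hagree : ∀ j, 0 ≤ j → j < 0 + p → Pseq e b j = Q j := by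
    intro j _ hj
    rw [hPQR j, hR0 j (by omega), mul_one]
  have h3 := iterDiff_congr_last p (Pseq e b) Q 0 hagree
  rw [zero_add, hPp, inv_one, mul_one] at h3
  have h4 : iterDiff p Q 0 ∈ Ffil' G m p (p + 0) := iterDiff_mem hanti' hcomm' hQ p 0
  have h5 : Ffil' G m p (p + 0) = L G (m + p) := by
    show (if p + 0 < p then L G (m + (p + 0 - 1)) else L G (m + (p + 0))) = _
    rw [if_neg (by omega)]
    rfl
  rw [h5] at h4
  have h6 : iterDiff p (Pseq e b) 0 ∈ L G (m + p) := by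
    rw [h3]
    exact mul_mem h4 (inv_mem hQp)
  have h7 : iterDiff p (Pseq e b) = Bseq e b (p - 1) := by
    have h8 := iterDiff_Pseq e b (p - 1)
    rwa [show p - 1 + 1 = p by omega] at h8
  rw [h7] at h6
  have h8 : cseq e b (p - 1) ∈ L G (m + p) := by
    have h9 := (L_normal (m + p)).conj_mem _ h6 (e ^ (0 + 1))⁻¹
    have e1 : (e ^ (0 + 1))⁻¹ * Bseq e b (p - 1) 0 * (e ^ (0 + 1))⁻¹⁻¹ = cseq e b (p - 1) := by
      show (e ^ (0 + 1))⁻¹ * (e ^ (0 + 1) * cseq e b (p - 1) * (e ^ (0 + 1))⁻¹) *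
        (e ^ (0 + 1))⁻¹⁻¹ = _
      group
    rwa [e1] at h9
  have h9 := cseq_not_memC hU hm hb hb1 (p - 1) (by omega)
  apply h9
  rw [show m + (p - 1) + 1 = m + p by omega]
  exact h8

end unif

/-- **[PS]** a uniform element gives the power structure. -/
theorem pkgPowStr_of (hUC : Cfsg.Agent.Lib.Helper63.BB.PkgUnifCent.{u})
    (_hKB : Cfsg.Agent.Lib.Helper63.BB.PkgKBasic.{u}) :
    Cfsg.Agent.Lib.Helper63.BB.PkgPowStr.{u} := by
  intro X _ _ p _ n hn hcard hcls s hs
  have hp : p.Prime := Fact.out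
  obtain ⟨hcent, hpow, hnotL⟩ := hUC X p n hn hcard hcls s hs
  obtain ⟨hcardL, hpowL⟩ := Cfsg.Agent.Lib.Helper59.MC.pkgStruct X p n (by omega) hcard hcls
  have hP : IsPGroup p X := IsPGroup.of_card hcard
  haveI : Group.IsNilpotent X := hP.isNilpotent
  have hU : UnifC p n s :=
    { card := hcard
      n3 := by omega
      cls := hcls
      powc := hpow
      powL := hpowL s
      cent := hcent
      notL1 := hnotL
      cardL := by
        intro i hi
        by_cases hin : i ≤ n - 1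
        · exact hcardL i hi hin
        · have hbot : L X i = ⊥ :=
            (Subgroup.lowerCentralSeries_eq_bot_iff_nilpotencyClass_le).2 (by omega)
          rw [hbot, Subgroup.card_bot]
          have h0 : n - 1 - i = 0 := by omega
          rw [h0, pow_zero] }
  refine ⟨?_, ?_⟩
  · intro i hi x hx
    exact pow_memC hU hi hx
  · intro i hi hin x hx hx1
    exact pow_not_memC hU hi hin hx hx1

end Cfsg.Agent.Lib.Helper23.BB
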